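import Cfsg.Agent.Chars.DegreeLtPrime.OrderP
import Cfsg.Agent.Chars.ItoMichler.Basic
import Cfsg.Agent.Chars.TwoDegrees.Basic
import Cfsg.Agent.VanishPPower.Basic

/-!
# If all degrees are less than `p`, a Sylow `p`-subgroup is normal and abelian
-/

set_option autoImplicit false

namespace CfsgLib.DegreeLtPrime

open Cfsg CfsgLib.Chars CfsgLib.Chars.Induced
open scoped ComplexConjugate

universe u

variable {p : ℕ} [Fact p.Prime]

/-- The degrees of a subgroup are bounded by those of the group. -/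
theorem degree_lt_subgroup {G : Type u} [Group G] [Finite G] (K : Subgroup G)
    (h : ∀ χ : IrrCharacter G, charDegree (χ : G → ℂ) < p) (θ : IrrCharacter K) :
    charDegree (θ : K → ℂ) < p := by
  classical
  have := Fintype.ofFinite G
  have := Fintype.ofFinite K
  obtain ⟨χ, hχ⟩ := exists_mult_ne_zero (isCharacter_indFun K (isCharacter_coe θ)) fun h0 => by
    have h1 := congrFun h0 1
    rw [CfsgLib.Chars.Induced.indFun_one_apply, Pi.zero_apply, mul_eq_zero] at h1
    exact h1.elim (Nat.cast_ne_zero.2 K.index_ne_zero_of_finite) (map_one_ne_zero θ)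
  rw [mult_indFun_irr, mult_ne_zero_iff (isCharacter_restrict (isCharacter_coe χ) K)] at hχ
  obtain ⟨c, -, hc, hd⟩ := exists_restrict_coeff χ K
  rw [hc, classInner_sum_smul, Nat.cast_ne_zero] at hχ
  refine lt_of_le_of_lt ?_ (h χ)
  rw [hd]
  exact (Nat.le_mul_of_pos_left _ (Nat.pos_of_ne_zero hχ)).trans
    (Finset.single_le_sum (f := fun η : IrrCharacter K => c η * charDegree (η : K → ℂ))
      (fun _ _ => Nat.zero_le _) (Finset.mem_univ θ))

/-- The simple groups with a large Sylow subgroup. -/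
theorem no_simple_large {G : Type u} [Group G] [Fintype G]
    (hsimple : ∀ N : Subgroup G, N.Normal → N = ⊥ ∨ N = ⊤) (Ps : Sylow p G)
    (hab : ∀ a ∈ Ps, ∀ b ∈ Ps, a * b = b * a) (hnn : ¬ (Ps : Subgroup G).Normal)
    (hproper : ∀ K : Subgroup G, K ≠ ⊤ → ∃ Q : Sylow p K, (Q : Subgroup K).Normal)
    (hq : 2 * p ≤ Nat.card Ps + 2)
    (hdeg : ∀ χ : IrrCharacter G, charDegree (χ : G → ℂ) < p) : False := by
  classical
  set P : Subgroup G := (Ps : Subgroup G) with hP
  haveI := Fintype.ofFinite P
  haveI : IsMulCommutative P := ⟨⟨fun a b => Subtype.ext (hab a a.2 b b.2)⟩⟩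
  set H := Subgroup.normalizer (P : Set G) with hH
  have hncent : ∀ x : G, x ≠ 1 → Subgroup.centralizer ({x} : Set G) ≠ ⊤ := by
    intro x hx htop
    have hxZ : x ∈ Subgroup.center G := Subgroup.mem_center_iff.2 fun g =>
      Subgroup.mem_centralizer_singleton_iff.1 (htop ▸ Subgroup.mem_top g)
    rcases hsimple (Subgroup.center G) inferInstance with h | h
    · exact hx (Subgroup.mem_bot.1 (h ▸ hxZ))
    · exact hnn ⟨fun a ha g => by
        rw [Subgroup.mem_center_iff.1 (h ▸ Subgroup.mem_top a) g, mul_inv_cancel_right]; exact ha⟩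
  have hPle : ∀ x ∈ P, P ≤ Subgroup.centralizer ({x} : Set G) := fun x hx a ha =>
    Subgroup.mem_centralizer_singleton_iff.2 (hab a ha x hx)
  have hcentH : ∀ x ∈ P, x ≠ 1 → Subgroup.centralizer ({x} : Set G) ≤ H := by
    intro x hx hx1
    obtain ⟨Q, hQ⟩ := hproper _ (hncent x hx1)
    letI := Sylow.unique_of_normal Q hQ
    have h : (Ps.subtype (hPle x hx) : Subgroup (Subgroup.centralizer ({x} : Set G))).Normal :=
      (Subsingleton.elim Q (Ps.subtype (hPle x hx))) ▸ hQ
    exact (Subgroup.normal_subgroupOf_iff_le_normalizer (hPle x hx)).1 h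
  have hTI : ∀ g : G, ∀ x ∈ P, x ≠ 1 → g⁻¹ * x * g ∈ P → g ∈ H := by
    intro g x hx hx1 hxg
    have hle : (g • Ps : Sylow p G) ≤ (Subgroup.centralizer ({x} : Set G) : Subgroup G) := by
      intro a ha
      rw [Sylow.coe_subgroup_smul, Subgroup.mem_pointwise_smul_iff_inv_smul_mem, ← map_inv,
        MulAut.smul_def, MulAut.conj_apply, inv_inv] at ha
      refine Subgroup.mem_centralizer_singleton_iff.2 ?_
      have h := hab _ ha _ hxg
      calc a * x = g * (g⁻¹ * a * g * (g⁻¹ * x * g)) * g⁻¹ := by group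
        _ = g * (g⁻¹ * x * g * (g⁻¹ * a * g)) * g⁻¹ := by rw [h]
        _ = x * a := by group
    obtain ⟨Q, hQ⟩ := hproper _ (hncent x hx1)
    letI := Sylow.unique_of_normal Q hQ
    have e : (g • Ps : Sylow p G) = Ps := Sylow.subtype_injective
      (Subsingleton.elim ((g • Ps).subtype hle) (Ps.subtype (hPle x hx)))
    exact Sylow.smul_eq_iff_mem_normalizer.1 e
  have hpH : ∀ z ∈ P, ∀ g : G, g⁻¹ * z * g ∈ H → g⁻¹ * z * g ∈ P := by
    intro z hz g hzg
    have h1 : IsPGroup p (Subgroup.zpowers (g⁻¹ * z * g)) := by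
      have := (Ps.2.map (MulAut.conj g⁻¹).toMonoidHom).to_le
        (show Subgroup.zpowers (g⁻¹ * z * g) ≤ P.map (MulAut.conj g⁻¹).toMonoidHom from
          Subgroup.zpowers_le.2 ⟨z, hz, by simp⟩)
      exact this
    have h2 : P ⊔ Subgroup.zpowers (g⁻¹ * z * g) = P :=
      Ps.is_maximal' (Ps.2.to_sup_of_normal_left' h1 (Subgroup.zpowers_le.2 hzg)) le_sup_left
    rw [← h2]
    exact Subgroup.mem_sup_right (Subgroup.mem_zpowers _)
  obtain ⟨g0, hg0⟩ : ∃ g, g ∉ H := by
    by_contra! h
    exact hnn (Subgroup.normalizer_eq_top_iff.1 (eq_top_iff.2 fun g _ => h g))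
  have hn : Nat.card P < H.index := by
    rw [Subgroup.index_eq_card, Nat.card_eq_fintype_card, Nat.card_eq_fintype_card]
    refine Fintype.card_lt_of_injective_of_notMem (fun x : P => ((x : G) * g0 : G ⧸ H)) ?_
      (b := ((1 : G) : G ⧸ H)) ?_
    · intro x y hxy
      rw [QuotientGroup.eq] at hxy
      have hxy' : g0⁻¹ * ((x : G)⁻¹ * y) * g0 ∈ H := by
        rwa [show g0⁻¹ * ((x : G)⁻¹ * y) * g0 = ((x : G) * g0)⁻¹ * ((y : G) * g0) by group]
      by_contra hne
      exact hg0 (hTI g0 _ (mul_mem (inv_mem x.2) y.2)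
        (fun h => hne (Subtype.ext (inv_mul_eq_one.1 h)))
        (hpH _ (mul_mem (inv_mem x.2) y.2) g0 hxy'))
    · rintro ⟨x, hx⟩
      rw [QuotientGroup.eq] at hx
      have : ((x : G) * g0) ∈ H := inv_mem_iff.1 (by simpa using hx)
      exact hg0 ((H.mul_mem_cancel_left (Subgroup.le_normalizer x.2)).1 this)
  -- the counting
  set D := ∑ χ : IrrCharacter G, charDegree (χ : G → ℂ) with hD
  have h1 : Nat.card G ≤ (p - 1) * D := by
    rw [← sum_charDegree_sq, hD, Finset.mul_sum]
    exact Finset.sum_le_sum fun χ _ => by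
      rw [sq]; exact Nat.mul_le_mul_right _ (Nat.le_sub_one_of_lt (hdeg χ))
  have h2 : Nat.card P * D ≤ ∑ x : P, Nat.card (Subgroup.centralizer ({(x : G)} : Set G)) := by
    have : ∀ χ : IrrCharacter G, ∃ m : ℕ, charDegree (χ : G → ℂ) ≤ m ∧
        (Nat.card P : ℂ) * m = ∑ x : P, (χ : G → ℂ) x * conj ((χ : G → ℂ) x) := by
      intro χ
      obtain ⟨c, -, hc, hd⟩ := exists_restrict_coeff χ P
      refine ⟨∑ θ, c θ ^ 2, ?_, ?_⟩
      · rw [hd]
        refine Finset.sum_le_sum fun θ _ => ?_
        rw [(charDegree_eq_one_iff θ).mpr (map_one_eq_one_of_isMulCommutative θ), mul_one]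
        exact Nat.le_self_pow two_ne_zero _
      · have hres : IsCharacter P (fun x : P => (χ : G → ℂ) x) := isCharacter_restrict (isCharacter_coe χ) P
        have hP' := classInner_eq_sum (CfsgLib.Chars.isClassFunction_of_isCharacter hres) (fun x : P => (χ : G → ℂ) x)
        have hc' : ∀ θ : IrrCharacter P, classInner (fun x : P => (χ : G → ℂ) x) (θ : P → ℂ) = c θ := fun θ => by
          rw [hc, classInner_sum_smul]
        simp only [hc', map_natCast] at hP'
        simp only [classInner] at hP'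
        push_cast
        rw [Finset.sum_congr rfl fun θ _ => sq (c θ : ℂ), ← hP', ← mul_assoc,
          mul_inv_cancel₀ CfsgLib.Chars.natCard_ne_zero, one_mul]
    choose m hm hm' using this
    refine (Nat.mul_le_mul_left _ (Finset.sum_le_sum fun χ _ => hm χ)).trans (le_of_eq ?_)
    apply Nat.cast_injective (R := ℂ)
    push_cast
    rw [Finset.mul_sum, Finset.sum_congr rfl fun χ _ => hm' χ, Finset.sum_comm]
    exact Finset.sum_congr rfl fun x _ => by rw [sum_irr_mul_conj, if_pos (IsConj.refl _)]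
  have h3 : ∑ x : P, Nat.card (Subgroup.centralizer ({(x : G)} : Set G)) ≤
      Nat.card G + (Nat.card P - 1) * Nat.card H := by
    rw [← Finset.add_sum_erase _ _ (Finset.mem_univ (1 : P))]
    refine Nat.add_le_add (Subgroup.card_le_card_group _) ?_
    refine (Finset.sum_le_card_nsmul _ _ (Nat.card H) fun x hx => ?_).trans (le_of_eq ?_)
    · exact Subgroup.card_le_of_le (hcentH x x.2 fun h => (Finset.mem_erase.1 hx).1 (Subtype.ext h))
    · simp only [smul_eq_mul, Finset.card_erase_of_mem (Finset.mem_univ _), Finset.card_univ,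
        Nat.card_eq_fintype_card]
  have h4 : Nat.card P * Nat.card G ≤ (p - 1) * (Nat.card G + (Nat.card P - 1) * Nat.card H) := by
    calc Nat.card P * Nat.card G ≤ Nat.card P * ((p - 1) * D) := Nat.mul_le_mul_left _ h1
      _ = (p - 1) * (Nat.card P * D) := by ring
      _ ≤ _ := Nat.mul_le_mul_left _ (h2.trans h3)
  rw [← H.card_mul_index] at h4
  have h5 : Nat.card P * H.index ≤ (p - 1) * (H.index + (Nat.card P - 1)) :=
    Nat.le_of_mul_le_mul_left (by
      calc Nat.card H * (Nat.card P * H.index) = Nat.card P * (Nat.card H * H.index) := by ring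
        _ ≤ _ := h4
        _ = _ := by ring) Nat.card_pos
  have hp2 := (Fact.out : p.Prime).two_le
  change 2 * p ≤ Nat.card P + 2 at hq
  obtain ⟨p', rfl⟩ : ∃ p', p = p' + 1 := ⟨p - 1, by omega⟩
  obtain ⟨q', hq'⟩ : ∃ q', Nat.card P = q' + 1 := ⟨Nat.card P - 1, by have := Nat.card_pos (α := P); omega⟩
  rw [hq'] at hn h5 hq
  simp only [Nat.add_sub_cancel] at h5
  nlinarith [Nat.mul_le_mul_left p' hn, Nat.mul_le_mul_right H.index hq, Nat.mul_le_mul_left q' hn]

theorem normal_sylow (n : ℕ) : ∀ (G : Type u) [Group G] [Finite G], Nat.card G = n →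
    (∀ χ : IrrCharacter G, charDegree (χ : G → ℂ) < p) → ∃ P : Sylow p G, (P : Subgroup G).Normal := by
  induction n using Nat.strong_induction_on with
  | _ n ih =>
  intro G _ _ hn hdeg
  classical
  have := Fintype.ofFinite G
  obtain ⟨P⟩ : Nonempty (Sylow p G) := inferInstance
  have hsub : ∀ K : Subgroup G, K ≠ ⊤ → ∃ Q : Sylow p K, (Q : Subgroup K).Normal := fun K hK =>
    ih _ (hn ▸ lt_of_le_of_ne (Subgroup.card_le_card_group K) fun e => hK (Subgroup.eq_top_of_card_eq K e))
      K rfl (degree_lt_subgroup K hdeg)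
  have hnd : ∀ χ : IrrCharacter G, ¬ p ∣ charDegree (χ : G → ℂ) := fun χ hd =>
    absurd (Nat.le_of_dvd (charDegree_pos χ) hd) (not_le.2 (hdeg χ))
  by_cases hN : ∃ N : Subgroup G, N.Normal ∧ N ≠ ⊥ ∧ N ≠ ⊤
  · obtain ⟨N, hNn, hNb, hNt⟩ := hN
    haveI := hNn
    obtain ⟨Q, hQ⟩ := hsub N hNt
    haveI := Q.characteristic_of_normal hQ
    set Q' := (Q : Subgroup N).map N.subtype with hQ'
    haveI hQ'n : Q'.Normal := inferInstance
    have hquot : ∀ (M : Subgroup G) [M.Normal], M ≠ ⊥ →
        ((P : Subgroup G) ⊔ M).Normal := by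
      intro M _ hM
      obtain ⟨R, hR⟩ := ih _ (hn ▸ (by
        rw [← M.index_mul_card, ← Subgroup.index_eq_card]
        exact lt_mul_of_one_lt_right (Nat.pos_of_ne_zero Subgroup.index_ne_zero_of_finite)
          ((Subgroup.one_lt_card_iff_ne_bot M).2 hM))) (G ⧸ M) rfl fun χ => by
            rw [← charDegree_inflate M χ]; exact hdeg _
      let Pb : Sylow p (G ⧸ M) := P.mapSurjective (QuotientGroup.mk'_surjective M)
      letI := Sylow.unique_of_normal R hR
      have hPb : ((P : Subgroup G).map (QuotientGroup.mk' M)).Normal := by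
        show (Pb : Subgroup (G ⧸ M)).Normal
        rw [Subsingleton.elim Pb R]; exact hR
      have := hPb.comap (QuotientGroup.mk' M)
      rwa [Subgroup.comap_map_eq, QuotientGroup.ker_mk'] at this
    by_cases hQb : Q' = ⊥
    · -- `N` is a `p'`-group
      have hcop : (Nat.card N).Coprime p := by
        refine Nat.Coprime.symm ((Nat.Prime.coprime_iff_not_dvd Fact.out).2 fun hd => ?_)
        have h1 := Q.dvd_card_of_dvd_card hd
        rw [← Nat.card_congr ((Q : Subgroup N).equivMapOfInjective N.subtype N.subtype_injective).toEquiv.symm, ← hQ', hQb,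
          Subgroup.card_bot] at h1
        exact (Fact.out : p.Prime).not_dvd_one h1
      haveI hR := hquot N hNb
      by_cases hRt : (P : Subgroup G) ⊔ N = ⊤
      · have hfix : ∀ θ : IrrCharacter N, inertia N (θ : N → ℂ) = ⊤ := by
          intro θ
          haveI := Fintype.ofFinite N
          obtain ⟨χ, hχ, -, hidx⟩ := CfsgLib.ItoMichler.not_dvd_constituent N hnd θ
          refine Subgroup.index_eq_one.1 ?_
          have hNle : N ≤ inertia N (θ : N → ℂ) := le_inertia (isClassFunction_coe θ)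
          have hdvd : (inertia N (θ : N → ℂ)).index ∣ Nat.card P := by
            refine (Subgroup.index_dvd_of_le hNle).trans ?_
            have h1 : N.index = N.relIndex P := by
              rw [← Subgroup.relIndex_top_right, ← hRt, Subgroup.relIndex_sup_right]
            rw [h1]
            exact Subgroup.relIndex_dvd_card _ _
          obtain ⟨k, hk⟩ := IsPGroup.iff_card.1 P.2
          obtain ⟨j, -, hj⟩ := (Nat.dvd_prime_pow Fact.out).1 (hk ▸ hdvd)
          rcases Nat.eq_zero_or_pos j with rfl | hj0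
          · rw [hj, pow_zero]
          · exact absurd (hj ▸ dvd_pow_self p hj0.ne') hidx
        have hcomm : ∀ y ∈ P, ∀ n ∈ N, n * y = y * n := fun y hy =>
          CfsgLib.VanishPPower.commute_of_forall_fixed hcop (by
            obtain ⟨k, hk⟩ := IsPGroup.iff_card.1 P.2
            obtain ⟨j, -, hj⟩ := (Nat.dvd_prime_pow Fact.out).1 (hk ▸ Subgroup.orderOf_dvd_natCard _ hy)
            exact ⟨j, hj⟩) fun θ => hfix θ ▸ Subgroup.mem_top y
        refine ⟨P, Subgroup.normalizer_eq_top_iff.1 (eq_top_iff.2 ?_)⟩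
        rw [← hRt]
        refine sup_le Subgroup.le_normalizer fun m hm => Subgroup.mem_normalizer_iff.2 fun y => ⟨fun hy => ?_, fun hy => ?_⟩
        · rw [hcomm y hy m hm, mul_inv_cancel_right]; exact hy
        · have h := hcomm _ hy m hm
          have h' : y = m * y * m⁻¹ := mul_left_cancel (a := m) (by rw [h]; group)
          rwa [h']
      · obtain ⟨S, hS⟩ := hsub _ hRt
        haveI := S.characteristic_of_normal hS
        letI := Sylow.unique_of_normal S hS
        refine ⟨P, ?_⟩
        have e : ((S : Subgroup ↥((P : Subgroup G) ⊔ N)).map ((P : Subgroup G) ⊔ N).subtype) = P := by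
          rw [Subsingleton.elim S (P.subtype le_sup_left)]
          exact Subgroup.map_subgroupOf_eq_of_le le_sup_left
        rw [← e]
        infer_instance
    · refine ⟨P, ?_⟩
      haveI := hquot Q' hQb
      have hle : (P : Subgroup G) ⊔ Q' = P := by
        refine P.is_maximal' ?_ le_sup_left
        rw [sup_comm]
        exact (Q.2.map N.subtype).to_sup_of_normal_left P.2
      rwa [hle] at this
  push Not at hN
  have hsimple : ∀ N : Subgroup G, N.Normal → N = ⊥ ∨ N = ⊤ := fun N hNn =>
    (em (N = ⊥)).imp_right (hN N hNn)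
  by_contra hno
  push Not at hno
  have hnn := hno P
  have hPt : (P : Subgroup G) ≠ ⊤ := fun h => hnn (h ▸ inferInstance)
  obtain ⟨k, hk⟩ := IsPGroup.iff_card.1 P.2
  rcases Nat.lt_or_ge k 2 with hk2 | hk2
  · interval_cases k
    · refine hnn ?_
      rw [show (P : Subgroup G) = ⊥ from Subgroup.card_eq_one.1 (by rw [hk, pow_zero])]
      infer_instance
    · exact no_simple_orderP hsimple P (by rw [hk, pow_one]) hnn hdeg
  · have hab : ∀ a ∈ P, ∀ b ∈ P, a * b = b * a := by
      intro a ha b hb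
      have hd := degree_lt_subgroup (P : Subgroup G) hdeg
      exact congrArg Subtype.val (CfsgLib.ItoMichler.comm_of_linear (G := (P : Subgroup G)) (fun θ => by
        refine CfsgLib.Chars.Apps.charDegree_eq_one_of_isPGroup P.2 θ fun h => ?_
        exact absurd (Nat.le_of_dvd (charDegree_pos θ) h) (not_le.2 (hd θ))) ⟨a, ha⟩ ⟨b, hb⟩)
    refine no_simple_large hsimple P hab hnn hsub ?_ hdeg
    have hp2 := (Fact.out : p.Prime).two_le
    have := Nat.pow_le_pow_right (Fact.out : p.Prime).pos hk2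
    show 2 * p ≤ Nat.card (P : Subgroup G) + 2
    rw [hk]
    nlinarith

end CfsgLib.DegreeLtPrime
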