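import Cfsg.Agent.Chars.Basic
import Cfsg.Agent.Chars.Induced.Mult
import Cfsg.Agent.Chars.Basic.Restrict
import Mathlib

/-!
# A Sylow subgroup of order `p`: multiplicities in the restrictions to its centralizer
-/

set_option autoImplicit false

namespace CfsgLib.DegreeLtPrime

open Cfsg CfsgLib.Chars
open scoped ComplexConjugate

universe u

section Column

variable {G : Type u} [Group G] [Fintype G]

open scoped Classical in
/-- The column orthogonality relation, counting conjugating elements. -/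
theorem sum_irr_eq_sum_conj (y z : G) :
    ∑ χ : IrrCharacter G, (χ : G → ℂ) y * conj ((χ : G → ℂ) z) =
      ∑ g : G, if g * z * g⁻¹ = y then (1 : ℂ) else 0 := by
  rw [sum_irr_mul_conj, Finset.sum_boole, ← Fintype.card_subtype, ← Nat.card_eq_fintype_card]
  split_ifs with h
  · obtain ⟨g0, hg0⟩ := isConj_iff.1 h.symm
    rw [Nat.cast_inj]
    refine Nat.card_congr ⟨fun c => ⟨(c : G) * g0, ?_⟩, fun g => ⟨(g : G) * g0⁻¹, ?_⟩,
      fun c => Subtype.ext (mul_inv_cancel_right _ _), fun g => Subtype.ext (inv_mul_cancel_right _ _)⟩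
    · have hc : (c : G) * y = y * c := Subgroup.mem_centralizer_singleton_iff.1 c.2
      calc (c : G) * g0 * z * ((c : G) * g0)⁻¹ = c * (g0 * z * g0⁻¹) * (c : G)⁻¹ := by group
        _ = y := by rw [hg0, hc, mul_inv_cancel_right]
    · refine Subgroup.mem_centralizer_singleton_iff.2 ?_
      calc (g : G) * g0⁻¹ * y = (g : G) * g0⁻¹ * (g0 * z * g0⁻¹) := by rw [hg0]
        _ = ((g : G) * z * (g : G)⁻¹) * ((g : G) * g0⁻¹) := by group
        _ = y * ((g : G) * g0⁻¹) := by rw [g.2]
  · haveI : IsEmpty {g : G // g * z * g⁻¹ = y} :=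
      ⟨fun g => h ((isConj_iff.2 ⟨g.1, g.2⟩ : IsConj z y).symm)⟩
    rw [Nat.card_of_isEmpty, Nat.cast_zero]

end Column

variable {G : Type u} [Group G] [Fintype G] {p : ℕ} [Fact p.Prime]

/-- A Sylow subgroup of order `p`. -/
structure OrderP (P : Subgroup G) (p : ℕ) : Prop where
  card_eq : Nat.card P = p
  not_dvd : ¬ p ∣ P.index

variable {P : Subgroup G}

theorem OrderP.isCyclic (S : OrderP P p) : IsCyclic P := isCyclic_of_prime_card S.card_eq

theorem OrderP.comm (S : OrderP P p) (a : G) (ha : a ∈ P) (b : G) (hb : b ∈ P) : a * b = b * a := by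
  haveI := S.isCyclic
  letI : CommGroup P := IsCyclic.commGroup
  exact congrArg Subtype.val (mul_comm (⟨a, ha⟩ : P) ⟨b, hb⟩)

theorem OrderP.le_centralizer (S : OrderP P p) : P ≤ Subgroup.centralizer (P : Set G) := fun a ha =>
  Subgroup.mem_centralizer_iff.2 fun b hb => S.comm b hb a ha

theorem OrderP.relIndex_coprime (S : OrderP P p) :
    (P.subgroupOf (Subgroup.centralizer (P : Set G))).index.Coprime p := by
  refine Nat.Coprime.symm ((Nat.Prime.coprime_iff_not_dvd Fact.out).2 fun h => S.not_dvd ?_)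
  rw [← Subgroup.relIndex_mul_index S.le_centralizer]
  exact h.mul_right _

/-- The projection of `C(P) = P × O_{p'}(C(P))` onto `P`. -/
theorem OrderP.exists_proj (S : OrderP P p) :
    ∃ (π : Subgroup.centralizer (P : Set G) →* P) (N : ℕ),
      (∀ y, ((π y : P) : G) = (y : G) ^ N) ∧
      ∀ (x : P), π ⟨x, S.le_centralizer x.2⟩ = x := by
  haveI := S.isCyclic
  letI : CommGroup P := IsCyclic.commGroup
  set C := Subgroup.centralizer (P : Set G)
  set P' := P.subgroupOf C
  set k := P'.index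
  have hkey : ∀ (y : C) (j : ℕ) (g₀ : C),
      g₀⁻¹ * y ^ j * g₀ ∈ P' → g₀⁻¹ * y ^ j * g₀ = y ^ j := by
    intro y j g₀ h
    have hc : g₀ * (g₀⁻¹ * y ^ j * g₀) = (g₀⁻¹ * y ^ j * g₀) * g₀ := Subtype.ext
      ((Subgroup.mem_centralizer_iff.1 g₀.2 _ (Subgroup.mem_subgroupOf.1 h)).symm)
    calc g₀⁻¹ * y ^ j * g₀ = (g₀⁻¹ * y ^ j * g₀) * g₀ * g₀⁻¹ := by group
      _ = g₀ * (g₀⁻¹ * y ^ j * g₀) * g₀⁻¹ := by rw [hc]
      _ = y ^ j := by group
  obtain ⟨t, ht⟩ : ∃ t : ℕ, k * t ≡ 1 [MOD p] := by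
    obtain ⟨t, ht⟩ := Nat.exists_mul_mod_eq_one_of_coprime S.relIndex_coprime (Fact.out : p.Prime).one_lt
    exact ⟨t, ht.2.trans (Nat.one_mod_eq_one.2 (Fact.out : p.Prime).ne_one).symm⟩
  let τ : C →* P := MonoidHom.transfer (H := P') (Subgroup.subgroupOfEquivOfLe S.le_centralizer).toMonoidHom
  have hτ : ∀ y : C, ((τ y : P) : G) = (y : G) ^ k := fun y => by
    rw [MonoidHom.transfer_eq_pow _ _ (hkey y)]
    rfl
  refine ⟨(powMonoidHom t).comp τ, k * t, fun y => ?_, fun x => Subtype.ext ?_⟩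
  · rw [MonoidHom.comp_apply, powMonoidHom_apply, Subgroup.coe_pow, hτ, ← pow_mul]
  · rw [MonoidHom.comp_apply, powMonoidHom_apply, Subgroup.coe_pow, hτ, ← pow_mul]
    show (x : G) ^ (k * t) = x
    conv_rhs => rw [← pow_one (x : G)]
    rw [pow_eq_pow_iff_modEq]
    refine ht.of_dvd ?_
    rw [Subgroup.orderOf_coe, ← S.card_eq]
    exact orderOf_dvd_natCard x

/-- `π` and its kernel. -/
structure Proj (P : Subgroup G) where
  π : Subgroup.centralizer (P : Set G) →* P
  N : ℕ
  π_coe : ∀ y, ((π y : P) : G) = (y : G) ^ N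
  surj : Function.Surjective π

theorem OrderP.nonempty_proj (S : OrderP P p) : Nonempty (Proj P) := by
  obtain ⟨π, N, h1, h2⟩ := S.exists_proj
  exact ⟨⟨π, N, h1, fun x => ⟨_, h2 x⟩⟩⟩

theorem normalizer_conj_centralizer {g y : G} (hg : g ∈ Subgroup.normalizer (P : Set G))
    (hy : y ∈ Subgroup.centralizer (P : Set G)) : g * y * g⁻¹ ∈ Subgroup.centralizer (P : Set G) := by
  rw [Subgroup.mem_centralizer_iff]
  intro x hx
  have h1 : g⁻¹ * x * g ∈ P := (Subgroup.mem_normalizer_iff''.1 hg x).1 hx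
  have h2 : g⁻¹ * x * g * y = y * (g⁻¹ * x * g) := Subgroup.mem_centralizer_iff.1 hy _ h1
  calc x * (g * y * g⁻¹) = g * (g⁻¹ * x * g * y) * g⁻¹ := by group
    _ = g * y * g⁻¹ * x := by rw [h2]; group

theorem Proj.map_conj (Q : Proj P) (h : Subgroup.normalizer (P : Set G))
    (y : Subgroup.centralizer (P : Set G)) :
    Q.π ⟨h * y * (h : G)⁻¹, normalizer_conj_centralizer h.2 y.2⟩ =
      P.normalizerMonoidHom h (Q.π y) := by
  refine Subtype.ext ?_
  rw [Q.π_coe]
  show ((h : G) * y * (h : G)⁻¹) ^ Q.N = (h : G) * (Q.π y : G) * (h : G)⁻¹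
  rw [conj_pow, Q.π_coe]

theorem OrderP.mem_normalizer (S : OrderP P p) (Q : Proj P) {g : G}
    {y : Subgroup.centralizer (P : Set G)} (hy : Q.π y ≠ 1)
    (hg : g * y * g⁻¹ ∈ Subgroup.centralizer (P : Set G)) : g ∈ Subgroup.normalizer (P : Set G) := by
  set x := Q.π y
  have hxg : g * (x : G) * g⁻¹ ∈ P := by
    rw [Q.π_coe, ← conj_pow, ← Q.π_coe ⟨_, hg⟩]
    exact SetLike.coe_mem _
  have hall : ∀ a ∈ P, g * a * g⁻¹ ∈ P := by
    intro a ha
    obtain ⟨j, hj⟩ := Subgroup.mem_zpowers_iff.1 (mem_zpowers_of_prime_card S.card_eq hy (g' := (⟨a, ha⟩ : P)))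
    have hj' : a = (x : G) ^ j := by
      rw [← Subgroup.coe_zpow, hj]
    rw [hj', ← conj_zpow]
    exact zpow_mem hxg j
  rw [Subgroup.mem_normalizer_iff]
  refine fun a => ⟨hall a, fun ha => ?_⟩
  let f : P → P := fun b => ⟨g * b * g⁻¹, hall b b.2⟩
  have hf : Function.Injective f := fun b c hbc => Subtype.ext (by
    simpa [f] using congrArg Subtype.val hbc)
  obtain ⟨b, hb⟩ := (Finite.injective_iff_surjective.1 hf) ⟨_, ha⟩
  have hb' : g * (b : G) * g⁻¹ = g * a * g⁻¹ := congrArg Subtype.val hb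
  have : (b : G) = a := by simpa using hb'
  exact this ▸ b.2

/-- The multiplicity of `l ∘ π` in the restriction of `χ`. -/
noncomputable def lmult (Q : Proj P) (χ : IrrCharacter G) (l : P →* ℂˣ) : ℕ :=
  letI := Fintype.ofFinite (Subgroup.centralizer (P : Set G))
  CfsgLib.Chars.Induced.mult (fun y : Subgroup.centralizer (P : Set G) => (χ : G → ℂ) y)
    (linChar (l.comp Q.π))

section

variable [Fintype (Subgroup.centralizer (P : Set G))] (Q : Proj P)

theorem coe_lmult (χ : IrrCharacter G) (l : P →* ℂˣ) :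
    (lmult Q χ l : ℂ) = classInner (fun y : Subgroup.centralizer (P : Set G) => (χ : G → ℂ) y)
      (linChar (l.comp Q.π) : Subgroup.centralizer (P : Set G) → ℂ) := by
  rw [CfsgLib.Chars.Induced.classInner_eq_mult (isCharacter_restrict (isCharacter_coe χ) _)]
  unfold lmult
  congr 2
  exact Subsingleton.elim _ _

theorem proj_linChar_inner (l m : P →* ℂˣ) [DecidableEq (P →* ℂˣ)] :
    classInner (linChar (l.comp Q.π) : Subgroup.centralizer (P : Set G) → ℂ)
      (linChar (m.comp Q.π) : Subgroup.centralizer (P : Set G) → ℂ) = if l = m then 1 else 0 := by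
  rw [classInner_irr]
  refine if_congr ⟨fun h => ?_, fun h => by rw [h]⟩ rfl rfl
  exact (MonoidHom.cancel_right Q.surj).1 (linChar_injective h)

/-- `∑_χ ⟨χ, l⟩ (⟨χ, l₁⟩ - ⟨χ, l₂⟩)` counts the normalizing elements carrying `l` to `lᵢ`. -/
theorem OrderP.sum_lmult (S : OrderP P p) (l l1 l2 : P →* ℂˣ) :
    (Nat.card (Subgroup.centralizer (P : Set G)) : ℤ) *
        ∑ χ : IrrCharacter G, (lmult Q χ l : ℤ) * ((lmult Q χ l1 : ℤ) - lmult Q χ l2) =
      (Nat.card {h : Subgroup.normalizer (P : Set G) //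
          l.comp (P.normalizerMonoidHom h).toMonoidHom = l1} : ℤ) -
        Nat.card {h : Subgroup.normalizer (P : Set G) //
          l.comp (P.normalizerMonoidHom h).toMonoidHom = l2} := by
  classical
  set C := Subgroup.centralizer (P : Set G) with hC
  let L : (P →* ℂˣ) → C → ℂ := fun k => (linChar (k.comp Q.π) : C → ℂ)
  let α : C → ℂ := fun z => L l1 z - L l2 z
  have hL : ∀ k z, L k z = (k (Q.π z) : ℂ) := fun k z => by simp [L]
  have hα : ∀ z, Q.π z = 1 → α z = 0 := fun z hz => by simp [α, hL, hz]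
  apply Int.cast_injective (α := ℂ)
  push_cast
  set c : ℂ := (Nat.card C : ℂ) with hc
  have hc0 : c ≠ 0 := CfsgLib.Chars.natCard_ne_zero
  have e1 : ∀ χ : IrrCharacter G, (lmult Q χ l : ℂ) * ((lmult Q χ l1 : ℂ) - lmult Q χ l2) =
      c⁻¹ * c⁻¹ * ∑ y : C, ∑ z : C, conj (L l y) * α z * ((χ : G → ℂ) y * conj ((χ : G → ℂ) z)) := by
    intro χ
    have hreal : ∀ k, (lmult Q χ k : ℂ) = c⁻¹ * ∑ z : C, L k z * conj ((χ : G → ℂ) z) := fun k => by
      rw [← Complex.conj_natCast, coe_lmult, classInner_conj_symm]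
      rfl
    rw [coe_lmult Q χ l, hreal l1, hreal l2, ← mul_sub, ← Finset.sum_sub_distrib, classInner,
      mul_mul_mul_comm, Finset.sum_mul_sum]
    congr 1
    exact Finset.sum_congr rfl fun y _ => Finset.sum_congr rfl fun z _ => by
      simp only [α, L]; ring
  have e2 : ∑ χ : IrrCharacter G, ∑ y : C, ∑ z : C,
      conj (L l y) * α z * ((χ : G → ℂ) y * conj ((χ : G → ℂ) z)) =
      ∑ z : C, ∑ h : Subgroup.normalizer (P : Set G),
        conj (L l ⟨h * z * (h : G)⁻¹, normalizer_conj_centralizer h.2 z.2⟩) * α z := by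
    rw [Finset.sum_comm]
    simp only [Finset.sum_comm (γ := IrrCharacter G), ← Finset.mul_sum, sum_irr_eq_sum_conj]
    rw [Finset.sum_comm]
    refine Finset.sum_congr rfl fun z _ => ?_
    simp only [Finset.mul_sum, mul_ite, mul_one, mul_zero]
    rw [Finset.sum_comm]
    have hinner : ∀ g : G, (∑ y : C, if g * (z : G) * g⁻¹ = y then conj (L l y) * α z else 0) =
        if hg : g * (z : G) * g⁻¹ ∈ C then conj (L l ⟨_, hg⟩) * α z else 0 := by
      intro g
      split_ifs with hg
      · rw [Finset.sum_eq_single_of_mem ⟨_, hg⟩ (Finset.mem_univ _) fun y _ hy =>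
          if_neg fun e => hy (Subtype.ext e.symm), if_pos rfl]
      · exact Finset.sum_eq_zero fun (y : C) _ => if_neg fun (e : g * (z : G) * g⁻¹ = (y : G)) => hg (by rw [e]; exact y.2)
    simp only [hinner]
    rw [← Finset.sum_filter_of_ne (p := fun g => g ∈ Subgroup.normalizer (P : Set G)) fun g _ hg => by
      by_contra hgn
      apply hg
      split_ifs with hgC
      · rw [hα z (by_contra fun hz => hgn (S.mem_normalizer Q hz hgC)), mul_zero]
      · rfl]
    rw [Finset.sum_subtype (p := fun g => g ∈ Subgroup.normalizer (P : Set G)) _ (by simp)]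
    exact Finset.sum_congr rfl fun h _ => dif_pos (normalizer_conj_centralizer h.2 z.2)
  have e3 : ∀ h : Subgroup.normalizer (P : Set G),
      ∑ z : C, conj (L l ⟨h * z * (h : G)⁻¹, normalizer_conj_centralizer h.2 z.2⟩) * α z =
      c * ((if l.comp (P.normalizerMonoidHom h).toMonoidHom = l1 then 1 else 0) -
        if l.comp (P.normalizerMonoidHom h).toMonoidHom = l2 then 1 else 0) := by
    intro h
    set l' := l.comp (P.normalizerMonoidHom h).toMonoidHom
    have hl' : ∀ z : C, L l ⟨h * z * (h : G)⁻¹, normalizer_conj_centralizer h.2 z.2⟩ = L l' z := fun z => by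
      rw [hL, hL, Q.map_conj h z]; rfl
    have hi : ∀ k, ∑ z : C, L k z * conj (L l' z) = c * (if l' = k then 1 else 0) := fun k => by
      rw [show (if l' = k then (1 : ℂ) else 0) = if k = l' then 1 else 0 from
        if_congr eq_comm rfl rfl, ← proj_linChar_inner Q k l', classInner, ← mul_assoc,
        mul_inv_cancel₀ hc0, one_mul]
    rw [mul_sub, ← hi, ← hi, ← Finset.sum_sub_distrib]
    exact Finset.sum_congr rfl fun z _ => by rw [hl']; simp only [α]; ring
  rw [Finset.sum_congr rfl fun χ _ => e1 χ, ← Finset.mul_sum, e2, Finset.sum_comm,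
    Finset.sum_congr rfl fun h _ => e3 h, ← Finset.mul_sum, Finset.sum_sub_distrib,
    Finset.sum_boole, Finset.sum_boole, ← Fintype.card_subtype, ← Fintype.card_subtype,
    Nat.card_eq_fintype_card, Nat.card_eq_fintype_card]
  field_simp

/-- `∑_χ χ(1) ⟨χ, l⟩ = [G : C(P)]`. -/
theorem sum_degree_lmult (l : P →* ℂˣ) :
    ∑ χ : IrrCharacter G, (charDegree (χ : G → ℂ) : ℤ) * lmult Q χ l =
      (Subgroup.centralizer (P : Set G)).index := by
  classical
  set C := Subgroup.centralizer (P : Set G) with hC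
  apply Int.cast_injective (α := ℂ)
  push_cast
  simp only [coe_lmult, classInner, coe_charDegree, Finset.mul_sum]
  rw [Finset.sum_comm]
  have h1 : ∀ y : C, ∑ χ : IrrCharacter G, (χ : G → ℂ) 1 * ((Nat.card C : ℂ)⁻¹ *
      ((χ : G → ℂ) y * conj ((linChar (l.comp Q.π) : C → ℂ) y))) =
      if y = 1 then (Nat.card C : ℂ)⁻¹ * Nat.card G else 0 := by
    intro y
    simp only [← mul_assoc, mul_comm _ (Nat.card C : ℂ)⁻¹]
    rw [← Finset.sum_mul]
    simp only [mul_assoc, ← Finset.mul_sum, sum_irr_map_one_mul]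
    split_ifs with hy hy' hy'
    · subst hy'; simp
    · exact absurd (Subtype.ext hy) hy'
    · exact absurd (congrArg Subtype.val hy') hy
    · simp
  rw [Finset.sum_congr rfl fun y _ => h1 y, Finset.sum_ite_eq' Finset.univ (1 : C),
    if_pos (Finset.mem_univ _)]
  rw [← C.card_mul_index]
  push_cast
  rw [← mul_assoc, inv_mul_cancel₀ CfsgLib.Chars.natCard_ne_zero, one_mul]

/-- The multiplicities sum to at most the degree; equality kills the kernel of `π`. -/
theorem sum_lmult_le (χ : IrrCharacter G) [Fintype (P →* ℂˣ)] :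
    ∑ l : P →* ℂˣ, lmult Q χ l ≤ charDegree (χ : G → ℂ) ∧
      (∑ l : P →* ℂˣ, lmult Q χ l = charDegree (χ : G → ℂ) → ∀ y : Subgroup.centralizer (P : Set G),
        (χ : G → ℂ) y = ∑ l : P →* ℂˣ, (lmult Q χ l : ℂ) * (l (Q.π y) : ℂ)) := by
  classical
  set C := Subgroup.centralizer (P : Set G) with hC
  obtain ⟨k, -, hk, hd⟩ := exists_restrict_coeff χ C
  set j : (P →* ℂˣ) → IrrCharacter C := fun l => linChar (l.comp Q.π)
  have hj : Function.Injective j := fun a b h =>
    (MonoidHom.cancel_right Q.surj).1 (linChar_injective h)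
  have hkl : ∀ l, lmult Q χ l = k (j l) := fun l => by
    apply Nat.cast_injective (R := ℂ)
    rw [coe_lmult, hk, classInner_sum_smul]
  have hdl : ∀ l, charDegree (j l : C → ℂ) = 1 := fun l => charDegree_linChar _
  have hsum : ∑ l, lmult Q χ l = ∑ θ ∈ Finset.univ.image j, k θ * charDegree (θ : C → ℂ) := by
    rw [Finset.sum_image fun a _ b _ h => hj h]
    exact Finset.sum_congr rfl fun l _ => by rw [hkl, hdl, mul_one]
  have hsplit := Finset.sum_add_sum_compl (Finset.univ.image j) (fun θ : IrrCharacter C => k θ * charDegree (θ : C → ℂ))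
  rw [← hd, ← hsum] at hsplit
  refine ⟨by omega, fun heq y => ?_⟩
  have h0 : ∀ θ ∈ (Finset.univ.image j)ᶜ, k θ = 0 := fun θ hθ => by
    have h : ∑ θ ∈ (Finset.univ.image j)ᶜ, k θ * charDegree (θ : C → ℂ) = 0 := by omega
    exact (mul_eq_zero.1 (Finset.sum_eq_zero_iff.1 h θ hθ)).resolve_right (charDegree_pos θ).ne'
  have h2 := congrFun hk y
  rw [show (χ : G → ℂ) (y : G) = _ from h2, Finset.sum_apply,
    ← Finset.sum_add_sum_compl (Finset.univ.image j), Finset.sum_image fun a _ b _ h => hj h,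
    Finset.sum_eq_zero (s := (Finset.univ.image j)ᶜ) fun θ hθ => by simp [h0 θ hθ], add_zero]
  exact Finset.sum_congr rfl fun l _ => by simp [hkl, j]

end

end CfsgLib.DegreeLtPrime
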